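import Cfsg.Agent.H209.IF.Defs

/-!
# S5719: transport of `IF` along an isomorphism, and the first inequality (helper371)
-/

set_option autoImplicit false
set_option linter.unusedSectionVars false

namespace Cfsg.Agent.H371.IFx

open MulAction Subgroup Cfsg.Agent.H284 Cfsg.Agent.H209.Fxy

section E1

variable {T : Type*} [Group T] [Finite T] {A : Subgroup T} {Γ : Subgroup (MulAut T)}

/-- A subgroup `B` centralised by `σ` acts on the fixed points of `σ`. -/
theorem relIndex_le_fx (A : Subgroup T) {σ : MulAut T} {B : Subgroup T} (hB : ∀ b ∈ B, σ b = b) :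
    A.relIndex B ≤ fx A σ := by
  let f : (B ⧸ A.subgroupOf B) → T ⧸ A := Quotient.lift (fun b : B => ((b : T) : T ⧸ A)) (by
    intro a b hab
    have h1 : a⁻¹ * b ∈ A.subgroupOf B := QuotientGroup.leftRel_apply.1 hab
    exact QuotientGroup.eq.2 h1)
  have hf : Function.Injective f := by
    intro a b hab
    induction a using QuotientGroup.induction_on with
    | H a =>
      induction b using QuotientGroup.induction_on with
      | H b =>
        have hab' : ((a : T) : T ⧸ A) = ((b : T) : T ⧸ A) := hab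
        rw [QuotientGroup.eq] at hab' ⊢
        exact hab'
  have hr : Set.range f ⊆ fixSet A σ := by
    rintro _ ⟨b, rfl⟩
    induction b using QuotientGroup.induction_on with
    | H b =>
      refine ⟨b, rfl, ?_⟩
      rw [hB b b.2, inv_mul_cancel]
      exact one_mem _
  calc A.relIndex B = Nat.card (B ⧸ A.subgroupOf B) := rfl
    _ = (Set.range f).ncard := by
        rw [← Set.image_univ, Set.ncard_image_of_injective _ hf, Set.ncard_univ]
    _ ≤ (fixSet A σ).ncard := Set.ncard_le_ncard hr (Set.toFinite _)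

theorem E1 (h : IF A Γ) {σ : MulAut T} (hσ : σ ∈ Γ) (h2 : orderOf σ = 2) {B : Subgroup T}
    (hB : ∀ b ∈ B, σ b = b) : A.relIndex B ^ 6 < A.index :=
  lt_of_le_of_lt (Nat.pow_le_pow_left (relIndex_le_fx A hB) 6) (h.small σ hσ h2)

theorem index_le_card (A : Subgroup T) : A.index ≤ Nat.card T := by
  rw [← A.card_mul_index]
  exact Nat.le_mul_of_pos_left _ Nat.card_pos

end E1

section Congr

variable {T X : Type*} [Group T] [Group X] (e : T ≃* X) {A : Subgroup T} {Γ : Subgroup (MulAut T)}

theorem fx_congr (A : Subgroup T) (σ : MulAut T) : fx (A.map e.toMonoidHom) (MulAut.congr e σ) = fx A σ := by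
  have hmem : ∀ t : T, e t ∈ A.map e.toMonoidHom ↔ t ∈ A := fun t =>
    Subgroup.mem_map_iff_mem (f := e.toMonoidHom) e.injective
  let f : T ⧸ A → X ⧸ A.map e.toMonoidHom := Quotient.lift (fun t : T => ((e t : X) : X ⧸ A.map e.toMonoidHom)) (by
    intro a b hab
    have h1 : a⁻¹ * b ∈ A := QuotientGroup.leftRel_apply.1 hab
    apply QuotientGroup.eq.2
    rw [← map_inv, ← map_mul, hmem]
    exact h1)
  have hf : Function.Injective f := by
    intro a b hab
    induction a using QuotientGroup.induction_on with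
    | H a =>
      induction b using QuotientGroup.induction_on with
      | H b =>
        have hab' : ((e a : X) : X ⧸ A.map e.toMonoidHom) = ((e b : X) : X ⧸ A.map e.toMonoidHom) := hab
        rw [QuotientGroup.eq, ← map_inv, ← map_mul, hmem] at hab'
        exact QuotientGroup.eq.2 hab'
  have key : ∀ y : T, (e y)⁻¹ * (MulAut.congr e σ) (e y) ∈ A.map e.toMonoidHom ↔ y⁻¹ * σ y ∈ A := by
    intro y
    have h1 : (MulAut.congr e σ) (e y) = e (σ y) := by
      show e (σ (e.symm (e y))) = _
      rw [MulEquiv.symm_apply_apply]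
    rw [h1, ← map_inv, ← map_mul, hmem]
  have h1 : f '' fixSet A σ = fixSet (A.map e.toMonoidHom) (MulAut.congr e σ) := by
    ext c
    constructor
    · rintro ⟨_, ⟨y, rfl, hy⟩, rfl⟩
      exact ⟨e y, rfl, (key y).2 hy⟩
    · rintro ⟨y, rfl, hy⟩
      obtain ⟨t, rfl⟩ := e.surjective y
      exact ⟨(t : T ⧸ A), ⟨t, rfl, (key t).1 hy⟩, rfl⟩
  rw [fx, fx, ← h1, Set.ncard_image_of_injective _ hf]

theorem IF.congr (h : IF A Γ) : IF (A.map e.toMonoidHom) (Γ.map (MulAut.congr e).toMonoidHom) := by
  have hmem : ∀ t : T, e t ∈ A.map e.toMonoidHom ↔ t ∈ A := fun t =>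
    Subgroup.mem_map_iff_mem (f := e.toMonoidHom) e.injective
  have hΓ : ∀ σ : MulAut T, MulAut.congr e σ ∈ Γ.map (MulAut.congr e).toMonoidHom ↔ σ ∈ Γ := fun σ =>
    Subgroup.mem_map_iff_mem (f := (MulAut.congr e).toMonoidHom) (MulAut.congr e).injective
  have happ : ∀ (σ : MulAut T) (t : T), (MulAut.congr e σ) (e t) = e (σ t) := by
    intro σ t
    show e (σ (e.symm (e t))) = _
    rw [MulEquiv.symm_apply_apply]
  have hord : ∀ σ : MulAut T, orderOf (MulAut.congr e σ) = orderOf σ := fun σ =>
    orderOf_injective (MulAut.congr e).toMonoidHom (MulAut.congr e).injective σ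
  have hidx : (A.map e.toMonoidHom).index = A.index := A.index_map_equiv e
  refine ⟨?_, ?_, ?_, ?_, ?_, ?_, ?_, ?_⟩
  · intro B hAB hB
    rcases h.max (B.comap e.toMonoidHom) (fun a ha => hAB ((hmem a).2 ha)) (by
      intro σ hσ b hb
      have h1 := hB (MulAut.congr e σ) ((hΓ σ).2 hσ) (e b) hb
      rw [happ] at h1
      exact h1) with h1 | h1
    · left
      rw [← h1, Subgroup.map_comap_eq_self_of_surjective (f := e.toMonoidHom) e.surjective]
    · right
      rw [Subgroup.eq_top_iff']
      intro x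
      obtain ⟨t, rfl⟩ := e.surjective x
      have h2 : t ∈ B.comap e.toMonoidHom := by rw [h1]; exact mem_top _
      exact h2
  · intro h1
    apply h.ne_top
    rw [Subgroup.eq_top_iff']
    intro t
    rw [← hmem, h1]
    exact mem_top _
  · intro h1
    apply h.ne_bot
    rw [Subgroup.eq_bot_iff_forall]
    intro t ht
    rw [← hmem, h1, mem_bot] at ht
    exact e.injective (ht.trans (map_one e).symm)
  · intro x
    obtain ⟨t, rfl⟩ := e.surjective x
    have h1 : MulAut.conj (e t) = MulAut.congr e (MulAut.conj t) := by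
      ext y
      obtain ⟨s, rfl⟩ := e.surjective y
      rw [happ, MulAut.conj_apply, MulAut.conj_apply, map_mul, map_mul, map_inv]
    rw [h1, hΓ, hmem]
    exact h.conj t
  · rintro _ ⟨σ, hσ, rfl⟩ x
    obtain ⟨t, rfl⟩ := e.surjective x
    have h1 : (MulAut.congr e).toMonoidHom σ (e t) = e (σ t) := happ σ t
    rw [h1, hmem, hmem]
    exact h.inv σ hσ t
  · rw [hidx]
    exact h.big
  · rintro _ ⟨σ, hσ, rfl⟩ ho
    have h1 : orderOf σ = 2 := by rw [← hord]; exact ho
    have h2 : fx (A.map e.toMonoidHom) ((MulAut.congr e).toMonoidHom σ) = fx A σ := fx_congr e A σ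
    rw [hidx, h2]
    exact h.small σ hσ h1
  · obtain ⟨σ, hσ, ho, hf⟩ := h.ex
    refine ⟨MulAut.congr e σ, (hΓ σ).2 hσ, by rw [hord, ho], ?_⟩
    rw [fx_congr]
    exact hf

end Congr

end Cfsg.Agent.H371.IFx
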